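import Cfsg.Agent.H171.RM.Count
import Cfsg.Agent.H555.RV.Crit
import Cfsg.Agent.H147.Fpr.Co3
import Cfsg.Agent.NotCT.Orders

/-!
# S3849, P11: `Co3`, the pairs of type CENT (helper171)
-/

set_option autoImplicit false

namespace Cfsg.Agent.H171.RM

open Cfsg Subgroup Cfsg.Agent.H571.DExt Cfsg.Agent.H555.RV

universe u

variable {S : Type u} [Group S] [Finite S]

namespace CoThree

theorem hc : Nat.card Spor.Co3 = 495766656000 := NotCT.Orders.co3 ⟨MulEquiv.refl _⟩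

theorem hfin : Finite Spor.Co3 := Nat.finite_of_card_ne_zero (by rw [hc]; norm_num)

theorem p27 : ¬ Dom ({2, 7} : Set ℕ) Spor.Co3 :=
  have := hfin
  nd_known (a := 10) (b := 2) Nat.prime_two (by norm_num) hc H147.Fpr.Co3.known7 (by decide +kernel)
theorem p2_11 : ¬ Dom ({2, 11} : Set ℕ) Spor.Co3 :=
  have := hfin
  nd_known (a := 10) (b := 1) Nat.prime_two (by norm_num) hc H147.Fpr.Co3.known11 (by decide +kernel)
theorem p2_23 : ¬ Dom ({2, 23} : Set ℕ) Spor.Co3 :=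
  have := hfin
  nd_known (a := 10) (b := 0) Nat.prime_two (by norm_num) hc H147.Fpr.Co3.known23 (by decide +kernel)
theorem p37 : ¬ Dom ({3, 7} : Set ℕ) Spor.Co3 :=
  have := hfin
  nd_known (a := 7) (b := 2) Nat.prime_three (by norm_num) hc H147.Fpr.Co3.known7 (by decide +kernel)
theorem p3_11 : ¬ Dom ({3, 11} : Set ℕ) Spor.Co3 :=
  have := hfin
  nd_known (a := 7) (b := 0) Nat.prime_three (by norm_num) hc H147.Fpr.Co3.known11 (by decide +kernel)

end CoThree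

theorem no2_co3_7 (h : Spor.IsoCo3 S) : ¬ Dom ({2, 7} : Set ℕ) S := by
  obtain ⟨e⟩ := h
  exact fun hD => CoThree.p27 (dom_equiv e hD)
theorem no2_co3_11 (h : Spor.IsoCo3 S) : ¬ Dom ({2, 11} : Set ℕ) S := by
  obtain ⟨e⟩ := h
  exact fun hD => CoThree.p2_11 (dom_equiv e hD)
theorem no2_co3_23 (h : Spor.IsoCo3 S) : ¬ Dom ({2, 23} : Set ℕ) S := by
  obtain ⟨e⟩ := h
  exact fun hD => CoThree.p2_23 (dom_equiv e hD)
theorem no_co3_3_7 (h : Spor.IsoCo3 S) : ¬ Dom ({3, 7} : Set ℕ) S := by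
  obtain ⟨e⟩ := h
  exact fun hD => CoThree.p37 (dom_equiv e hD)
theorem no_co3_3_11 (h : Spor.IsoCo3 S) : ¬ Dom ({3, 11} : Set ℕ) S := by
  obtain ⟨e⟩ := h
  exact fun hD => CoThree.p3_11 (dom_equiv e hD)

end Cfsg.Agent.H171.RM
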