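import Cfsg.Agent.H555.RV.Crit

/-!
# S3849, P11: a nonabelian subgroup of order `p ^ 3` and the 2-part of the normalizer of a Sylow subgroup (helper171)

* `KQ.extra_c` : `|Q : C_Q(c)| = 2 ^ k` with `p ^ 2 ∣ 2 ^ k - 1`;
* `no2_of_extra_norm` : no `D_{2,p}` if `2 ^ (a - d + 1)` divides `|N_S(P)|`, `d` the order of 2 mod `p ^ 2`.
-/

set_option autoImplicit false

namespace Cfsg.Agent.H171.RM

open Subgroup Cfsg Cfsg.Agent.H571.DExt Cfsg.Agent.H988.CPi Cfsg.Agent.H171.Odd Cfsg.Agent.H555.RV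
open scoped Pointwise

universe u

variable {S : Type u} [Group S]

theorem relIndex_sup {A Q : Subgroup S} (h : A ≤ normalizer (Q : Set S)) : Q.relIndex (A ⊔ Q) = Q.relIndex A := by
  have hn : (Q.subgroupOf (A ⊔ Q)).Normal :=
    (normal_subgroupOf_iff_le_normalizer le_sup_right).mpr (sup_le h le_normalizer)
  have h1 := relIndex_sup_right (A.subgroupOf (A ⊔ Q)) (Q.subgroupOf (A ⊔ Q))
  rw [← Subgroup.subgroupOf_sup le_sup_left le_sup_right, relIndex_subgroupOf le_rfl,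
    relIndex_subgroupOf le_sup_left] at h1
  exact h1

theorem extra_c [Finite S] {p a b : ℕ} {K Q : Subgroup S} (h : KQ p a b K Q) (hp : p.Prime) (hp2 : p ≠ 2)
    {P : Subgroup S} (hP : P ≤ K) (hc : Nat.card P = p ^ 3) (hna : ∃ x ∈ P, ∃ y ∈ P, x * y ≠ y * x) {c : S}
    (hcP : c ∈ P) (hc1 : c ≠ 1) (hcc : ∀ x ∈ P, x * c = c * x) :
    ∃ i j, Nat.card Q = 2 ^ j ∧ Nat.card (Q ⊓ centralizer {c} : Subgroup S) = 2 ^ i ∧ i < j ∧ j ≤ a ∧
      p ^ 2 ∣ 2 ^ (j - i) - 1 := by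
  have hfp : Fact p.Prime := ⟨hp⟩
  have hPp : IsPGroup p P := IsPGroup.of_card hc
  set R : Subgroup S := Q ⊓ centralizer {c} with hR
  have hPR : P ≤ normalizer (R : Set S) := by
    intro x hx
    apply mem_normalizer_fintype
    rintro y ⟨hy, hyc⟩
    refine ⟨(mem_normalizer_iff.1 (h.nrm (hP hx)) y).1 hy, ?_⟩
    show x * y * x⁻¹ ∈ centralizer {c}
    rw [mem_centralizer_singleton_iff]
    have h1 : Commute y c := mem_centralizer_singleton_iff.1 hyc
    have h2 : Commute x c := hcc x hx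
    exact ((h2.mul_left h1).mul_left h2.inv_left).eq
  have h1 : p ^ 2 ∣ Nat.card Q - Nat.card R := by
    refine dvd_sub (P := P) (hP.trans h.nrm) hPR inf_le_left fun y hy hyR => ?_
    have h2 := card_inf_mul (centralizer {y}) P
    rw [hc] at h2
    have h3 : Nat.card (centralizer {y} ⊓ P : Subgroup S) ∣ p ^ 3 := ⟨_, h2.symm⟩
    obtain ⟨k, hk, hk2⟩ := (Nat.dvd_prime_pow hp).1 h3
    have hcn : c ∉ (centralizer {y} ⊓ P : Subgroup S) := by
      intro h5
      have h6 : y ∈ centralizer {c} := by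
        rw [mem_centralizer_singleton_iff]
        exact (mem_centralizer_singleton_iff.1 h5.1).symm
      exact hyR ⟨hy, h6⟩
    have hk3 : k ≠ 2 := by
      rintro rfl
      exact hcn (mem_of_sq hp hc hna hcP hcc inf_le_right hk2)
    have hk4 : k ≠ 3 := by
      rintro rfl
      have h5 : (centralizer {y} ⊓ P : Subgroup S) = P := eq_of_le_of_card_ge inf_le_right (by rw [hk2, hc])
      apply hcn
      rw [h5]
      exact hcP
    rw [hk2] at h2
    have h4 : (centralizer {y}).relIndex P = p ^ (3 - k) := by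
      apply Nat.eq_of_mul_eq_mul_left (pow_pos hp.pos k)
      rw [h2, ← pow_add]
      congr 1
      omega
    rw [h4]
    exact pow_dvd_pow p (by omega)
  obtain ⟨j, hj, hjQ⟩ := h.card_Q hp hp2 le_rfl
  obtain ⟨i, hi, hiR⟩ := h.card_Q hp hp2 (R := R) inf_le_left
  rw [hjQ, hiR] at h1
  have hij : i < j := by
    by_contra h3
    have h4 : R = Q := eq_of_le_of_card_ge inf_le_left (by rw [hjQ, hiR]; exact Nat.pow_le_pow_right (by norm_num) (by omega))
    have h5 : c ∈ Q := h.cen ⟨hP hcP, mem_centralizer_iff.2 fun y hy => by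
      have h6 : y ∈ R := by rw [h4]; exact hy
      exact mem_centralizer_singleton_iff.1 h6.2⟩
    obtain ⟨k, hk⟩ := h.two ⟨c, h5⟩
    obtain ⟨l, hl⟩ := hPp ⟨c, hcP⟩
    have hk : c ^ 2 ^ k = 1 := congrArg Subtype.val hk
    have hl : c ^ p ^ l = 1 := congrArg Subtype.val hl
    apply hc1
    have h7 : orderOf c ∣ 1 := by
      have h8 : Nat.Coprime (2 ^ k) (p ^ l) := Nat.Coprime.pow _ _ ((Nat.coprime_primes Nat.prime_two hp).2 (Ne.symm hp2))
      have h9 := Nat.dvd_gcd (orderOf_dvd_of_pow_eq_one hk) (orderOf_dvd_of_pow_eq_one hl)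
      rwa [h8] at h9
    rwa [Nat.dvd_one, orderOf_eq_one_iff] at h7
  refine ⟨i, j, hjQ, hiR, hij, hj, ?_⟩
  have h2 : 2 ^ j - 2 ^ i = 2 ^ i * (2 ^ (j - i) - 1) := by
    rw [Nat.mul_sub, ← pow_add, mul_one]
    congr 2
    omega
  rw [h2] at h1
  exact (Nat.Coprime.pow _ _ ((Nat.coprime_primes hp Nat.prime_two).2 hp2)).dvd_of_dvd_mul_left h1

/-- **no `D_{2,p}`**, from a nonabelian subgroup of order `p ^ 3` and `|N_S(P)|_2` -/
theorem no2_of_extra_norm [Finite S] {p a b m d : ℕ} (hp : p.Prime) (hp2 : p ≠ 2) (hS : Nat.card S = 2 ^ a * p ^ b * m)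
    (h2 : ¬ 2 ∣ m) (hm : ¬ p ∣ m) (hI : Inv1 2 p S) {E : Subgroup S} (hcE : Nat.card E = p ^ 3)
    (hna : ∃ x ∈ E, ∃ y ∈ E, x * y ≠ y * x) (hd : ∀ k, 1 ≤ k → k ≤ a → p ^ 2 ∣ 2 ^ k - 1 → d ≤ k)
    {P : Subgroup S} (hP : Nat.card P = p ^ b) {R : Subgroup S} (hR : IsPGroup 2 R) (hRP : R ≤ normalizer (P : Set S))
    (hRc : 2 ^ (a - d) < Nat.card R) : ¬ Dom ({2, p} : Set ℕ) S := by
  intro hD
  have hfp : Fact p.Prime := ⟨hp⟩
  have hf2 : Fact (Nat.Prime 2) := ⟨Nat.prime_two⟩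
  obtain ⟨K, Q, h⟩ := exists_KQ hp hp2 hS h2 hm hI hD
  have hX : PiN ({2, p} : Set ℕ) (Nat.card (R ⊔ P : Subgroup S)) := by
    refine piN_sup hRP ?_ (piN_of_pgroup hp (IsPGroup.of_card hP))
    obtain ⟨k, hk⟩ := hR.exists_card_eq
    intro r hr hrd
    rw [hk] at hrd
    left
    exact (Nat.prime_dvd_prime_iff_eq hr Nat.prime_two).1 (hr.dvd_of_dvd_pow hrd)
  obtain ⟨g, hg⟩ := h.conj_le hX
  set P' : Subgroup S := P.map (MulAut.conj g).toMonoidHom with hP'
  set R' : Subgroup S := R.map (MulAut.conj g).toMonoidHom with hR'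
  have hinj : Function.Injective (MulAut.conj g).toMonoidHom := (MulAut.conj g).injective
  have hPK : P' ≤ K := (map_mono le_sup_right).trans hg
  have hRK : R' ≤ K := (map_mono le_sup_left).trans hg
  have hcP' : Nat.card P' = p ^ b := by rw [hP', card_map_of_injective hinj, hP]
  have hcR' : Nat.card R' = Nat.card R := by rw [hR', card_map_of_injective hinj]
  have hRP' : R' ≤ normalizer (P' : Set S) := by
    rintro _ ⟨r, hr, rfl⟩
    apply mem_normalizer_fintype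
    rintro _ ⟨x, hx, rfl⟩
    refine ⟨r * x * r⁻¹, (mem_normalizer_iff.1 (hRP hr) x).1 hx, ?_⟩
    rw [map_mul, map_mul, map_inv]
  -- `E` in `P'`
  have hidx : ¬ p ∣ P'.index := by
    have h3 := P'.card_mul_index
    rw [hcP', hS] at h3
    have h4 : P'.index = 2 ^ a * m := by
      apply Nat.eq_of_mul_eq_mul_left (pow_pos hp.pos b)
      rw [h3]; ring
    rw [h4]
    intro h5
    rcases hp.dvd_mul.1 h5 with h6 | h6
    · exact hp2 ((Nat.prime_dvd_prime_iff_eq hp Nat.prime_two).1 (hp.dvd_of_dvd_pow h6))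
    · exact hm h6
  let PS : Sylow p S := (IsPGroup.of_card hcP').toSylow hidx
  obtain ⟨ES, hES⟩ := (IsPGroup.of_card hcE : IsPGroup p E).exists_le_sylow
  obtain ⟨u, hu⟩ := MulAction.exists_smul_eq S ES PS
  have hPS : (PS : Subgroup S) = (ES : Subgroup S).map (MulAut.conj u).toMonoidHom := by
    rw [← hu]; rfl
  set E' : Subgroup S := E.map (MulAut.conj u).toMonoidHom with hE'
  have hEP : E' ≤ P' := by
    have h3 : (PS : Subgroup S) = P' := rfl
    rw [← h3, hPS]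
    exact map_mono hES
  have hcE' : Nat.card E' = p ^ 3 := by rw [hE', card_map_of_injective (MulAut.conj u).injective, hcE]
  have hna' : ∃ x ∈ E', ∃ y ∈ E', x * y ≠ y * x := by
    obtain ⟨x, hx, y, hy, hxy⟩ := hna
    refine ⟨_, ⟨x, hx, rfl⟩, _, ⟨y, hy, rfl⟩, fun h5 => hxy ?_⟩
    rw [← map_mul, ← map_mul] at h5
    exact (MulAut.conj u).injective h5
  have hnt : Nontrivial E' := by
    rw [nontrivial_iff_ne_bot]
    intro h5
    rw [h5, card_bot] at hcE'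
    have := Nat.one_lt_pow (n := 3) (by norm_num) hp.one_lt
    omega
  have hnc := (IsPGroup.of_card hcE' : IsPGroup p E').center_nontrivial
  obtain ⟨⟨⟨c, hcE⟩, hcZ⟩, hc1⟩ := exists_ne (1 : center E')
  have hc1 : c ≠ 1 := fun h5 => hc1 (by subst h5; rfl)
  have hcc : ∀ x ∈ E', x * c = c * x := fun x hx => congrArg Subtype.val (mem_center_iff.1 hcZ ⟨x, hx⟩)
  obtain ⟨i, j, hjQ, hiQ, hij, hja, hdj⟩ := extra_c h hp hp2 (hEP.trans hPK) hcE' hna' hcE hc1 hcc
  have hdle := hd (j - i) (by omega) (by omega) hdj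
  -- `R' ⊓ Q` centralises `c`
  have hRQ : R' ⊓ Q ≤ Q ⊓ centralizer {c} := by
    rintro r ⟨hr, hrQ⟩
    refine ⟨hrQ, mem_centralizer_singleton_iff.2 ?_⟩
    have hcP' : c ∈ P' := hEP hcE
    have h3 : r * c * r⁻¹ * c⁻¹ ∈ Q := by
      have h4 : c * r⁻¹ * c⁻¹ ∈ Q := (mem_normalizer_iff.1 (h.nrm (hPK hcP')) _).1 (inv_mem hrQ)
      have h5 := mul_mem hrQ h4
      rwa [show r * (c * r⁻¹ * c⁻¹) = r * c * r⁻¹ * c⁻¹ by group] at h5
    have h4 : r * c * r⁻¹ * c⁻¹ ∈ P' :=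
      mul_mem ((mem_normalizer_iff.1 (hRP' hr) _).1 hcP') (inv_mem hcP')
    have h5 : r * c * r⁻¹ * c⁻¹ = 1 := by
      obtain ⟨k, hk⟩ := h.two ⟨_, h3⟩
      obtain ⟨l, hl⟩ := (IsPGroup.of_card (n := b) (by rw [card_map_of_injective hinj, hP]) : IsPGroup p P') ⟨_, h4⟩
      have hk := congrArg Subtype.val hk
      have hl := congrArg Subtype.val hl
      have h8 : Nat.Coprime (2 ^ k) (p ^ l) := Nat.Coprime.pow _ _ ((Nat.coprime_primes Nat.prime_two hp).2 (Ne.symm hp2))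
      have h9 := Nat.dvd_gcd (orderOf_dvd_of_pow_eq_one hk) (orderOf_dvd_of_pow_eq_one hl)
      rw [h8] at h9
      rwa [Nat.dvd_one, orderOf_eq_one_iff] at h9
    have h6 := mul_inv_eq_one.1 h5
    exact mul_inv_eq_iff_eq_mul.1 h6
  -- the order of `R' Q`
  have h3 : Nat.card (R' ⊓ Q : Subgroup S) ≤ 2 ^ i := by
    rw [← hiQ]; exact card_le_of_le hRQ
  have h4 : Nat.card (R' ⊔ Q : Subgroup S) ≤ 2 ^ a := by
    have h5 : IsPGroup 2 (R' ⊔ Q : Subgroup S) :=
      IsPGroup.to_sup_of_normal_right' (hR.map _) h.two (hRK.trans h.nrm)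
    obtain ⟨k, hk⟩ := h5.exists_card_eq
    rw [hk]
    apply Nat.pow_le_pow_right (by norm_num)
    have h6 : 2 ^ k ∣ 2 ^ a * p ^ b := by rw [← hk, ← h.card]; exact card_dvd_of_le (sup_le hRK h.le)
    have h7 : 2 ^ k ∣ 2 ^ a := by
      apply Nat.Coprime.dvd_of_dvd_mul_right _ h6
      exact Nat.Coprime.pow _ _ ((Nat.coprime_primes Nat.prime_two hp).2 (Ne.symm hp2))
    exact (Nat.pow_dvd_pow_iff_le_right (by norm_num)).1 h7
  have h5 : Nat.card R' * Nat.card Q = Nat.card (R' ⊔ Q : Subgroup S) * Nat.card (R' ⊓ Q : Subgroup S) := by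
    have h6 := card_inf_mul Q (R' ⊔ Q)
    have h7 := card_inf_mul Q R'
    have h8 : Q.relIndex (R' ⊔ Q) = Q.relIndex R' := relIndex_sup (hRK.trans h.nrm)
    rw [inf_eq_left.2 (le_sup_right : Q ≤ R' ⊔ Q), h8] at h6
    rw [← h6, ← h7, inf_comm R' Q]
    ring
  rw [hjQ, hcR'] at h5
  have h6 : Nat.card R * 2 ^ j ≤ 2 ^ (a - d) * 2 ^ j := by
    rw [h5]
    calc Nat.card (R' ⊔ Q : Subgroup S) * Nat.card (R' ⊓ Q : Subgroup S) ≤ 2 ^ a * 2 ^ i := Nat.mul_le_mul h4 h3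
      _ ≤ 2 ^ (a - d) * 2 ^ j := by
        rw [← pow_add, ← pow_add]
        exact Nat.pow_le_pow_right (by norm_num) (by omega)
  have h7 := Nat.le_of_mul_le_mul_right h6 (by positivity)
  omega

end Cfsg.Agent.H171.RM
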