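import Cfsg.Agent.CpAut.LyFiveRow
import Cfsg.Agent.H171.RM.ZC

/-!
# S3849, P11: an extraspecial subgroup `5 ^ (1 + 4)` of the Lyons group (helper171)
-/

set_option autoImplicit false
set_option maxRecDepth 100000

namespace Cfsg.Agent.H171.RM.Lyons

open Subgroup Cfsg Cfsg.Agent.Ly.Mat7 Cfsg.Agent.CpAut.LyFiveRow

/-- four words, `[0, 1] ≠ 1`, `[2, 3] ≠ 1`, the other pairs commute -/
def uw : Fin 4 → List ℕ := ![[2], [4, 2, 0], [5, 2, 1, 2, 2, 2, 2, 4, 2, 0, 4, 2, 0], [1, 2, 5, 4, 2, 0, 4, 2, 0, 4, 2, 0]]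

/-- the commutator of the first two -/
def cw : List ℕ := invW (uw 0) ++ invW (uw 1) ++ uw 0 ++ uw 1

theorem pw_inv (v : List ℕ) : pw (invW v) = (pw v)⁻¹ := by rw [pw, ev_invW, map_inv]; rfl

theorem u_pow (i : Fin 4) : pw (uw i) ^ 5 = 1 := by
  have h : ∀ i : Fin 4, eqW (uw i ++ uw i ++ uw i ++ uw i ++ uw i) [] = true := by decide +kernel
  have h1 := pw_eq (h i)
  rw [pw_append, pw_append, pw_append, pw_append, pw_nil] at h1
  exact pow_five h1

theorem c_pow : pw cw ^ 5 = 1 := by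
  have h : eqW (cw ++ cw ++ cw ++ cw ++ cw) [] = true := by decide +kernel
  have h1 := pw_eq h
  rw [pw_append, pw_append, pw_append, pw_append, pw_nil] at h1
  exact pow_five h1

theorem c_comm (i : Fin 4) : pw (uw i) * pw cw = pw cw * pw (uw i) := by
  have h : ∀ i : Fin 4, eqW (uw i ++ cw) (cw ++ uw i) = true := by decide +kernel
  have h1 := pw_eq (h i)
  rwa [pw_append, pw_append] at h1

theorem u_comm : ∀ i j : Fin 4, (i = 0 ∨ i = 1) → (j = 2 ∨ j = 3) →
    pw (uw i) * pw (uw j) = pw (uw j) * pw (uw i) := by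
  intro i j hi hj
  have h : eqW (uw i ++ uw j) (uw j ++ uw i) = true := by
    rcases hi with rfl | rfl <;> rcases hj with rfl | rfl <;> decide +kernel
  have h1 := pw_eq h
  rwa [pw_append, pw_append] at h1

theorem c_ne : pw cw ≠ 1 := pw_ne (by decide +kernel)

theorem c_eq : pw cw = (pw (uw 0))⁻¹ * (pw (uw 1))⁻¹ * pw (uw 0) * pw (uw 1) := by
  rw [cw, pw_append, pw_append, pw_append, pw_inv, pw_inv]

theorem c_sq : pw cw * pw cw = (pw (uw 2))⁻¹ * (pw (uw 3))⁻¹ * pw (uw 2) * pw (uw 3) := by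
  have h : eqW (cw ++ cw) (invW (uw 2) ++ invW (uw 3) ++ uw 2 ++ uw 3) = true := by decide +kernel
  have h1 := pw_eq h
  rwa [pw_append, pw_append, pw_append, pw_append, pw_inv, pw_inv] at h1

theorem u01 : pw (uw 0) * pw (uw 1) ≠ pw (uw 1) * pw (uw 0) := by
  intro h
  apply c_ne
  rw [c_eq, mul_assoc, h]
  group

theorem u23 : pw (uw 2) * pw (uw 3) ≠ pw (uw 3) * pw (uw 2) := by
  intro h
  have h1 : pw cw * pw cw = 1 := by
    rw [c_sq, mul_assoc, h]
    group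
  apply c_ne
  have h2 := c_pow
  calc pw cw = (pw cw) ^ 5 * (pw cw * pw cw)⁻¹ * (pw cw * pw cw)⁻¹ := by group
    _ = 1 := by rw [h2, h1]; group

end Cfsg.Agent.H171.RM.Lyons
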